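import Cfsg.Agent.H6.LR.M.C1.D2

set_option autoImplicit false
set_option maxRecDepth 100000
set_option Elab.async false

namespace Cfsg.H6.LR.M.C1

theorem b6 : allR (blk get gs (gwB gwh 215) gd 27883091610518724965067285990884685173082682425600) 4056 687 = true := by decide +kernel

theorem b7 : allR (blk get gs (gwB gwh 215) gd 27883091610518724965067285990884685173082682425600) 4743 681 = true := by decide +kernel

theorem b8 : allR (blk get gs (gwB gwh 215) gd 27883091610518724965067285990884685173082682425600) 5424 668 = true := by decide +kernel

end Cfsg.H6.LR.M.C1
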