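import Cfsg.Agent.H6.Cert
import Cfsg.Agent.H6.LR.M.Pres
import Cfsg.Agent.H6.LR.M.C1.B0
import Cfsg.Agent.H6.LR.M.C1.B1
import Cfsg.Agent.H6.LR.M.C1.B2
import Cfsg.Agent.H6.LR.M.C1.B3
import Cfsg.Agent.H6.LR.M.C1.B4
import Cfsg.Agent.H6.LR.M.C1.B5

set_option autoImplicit false
set_option maxRecDepth 100000
set_option Elab.async false

namespace Cfsg.H6.LR.M.C1

def sg : List (List ℕ) := [[], [1], [2], [3], [4], [5], [6], [7], [8], [1], [1], [2], [2], [3], [4], [5], [5], [6], [6], [7], [7]]

def BL : List ℕ := [0x109, 0x20b, 0x40d, 0x50f, 0x611, 0x713, 0x8010801, 0x8020802, 0x4080408, 0x5040504, 0x5020502, 0x50301050301, 0x50805080508, 0x1020105010702070105, 0x602060502, 0x40404, 0x60406040604, 0x70407040704, 0x507050105070301, 0x40204020402, 0x3020102010402010201, 0x60105020106010201, 0x40104010401, 0x60706070607, 0x6080608060806080608, 0x7080708070807080708, 0x2050205, 0x10201060102050106, 0x101, 0x304, 0x403, 0x505, 0x202, 0x808, 0x30703070307, 0x707, 0x3050305, 0x2080208, 0x70607060706, 0x606, 0x5010702070105010201, 0x205060206, 0x30603060306, 0x406030804060308040603080406030804060308,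 0x104070501050705, 0x8060806080608060806, 0x407030804070308040703080407030804070308, 0x804060308040603080406030804060308040603, 0x8030803, 0x0, 0x8070807080708070807, 0x10301030103, 0x1080108, 0x804070308040703080407030804070308040703, 0x20302030203, 0x1020102030102010204, 0x10405010405, 0x30303, 0x80508050805]

def Sub : List (List ℕ) := [[1], [2], [3], [5], [6], [7]]

theorem hA : prepA 1486034431776358958537884813664031080579328 LR.M.R sg 27883091610518724965067285990884685173082682425600 BL Sub get gd = true := by decide +kernel

theorem hw : allR (okW BL gwh) 0 215 = true := by decide +kernel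

theorem hb : ∀ b, 4 ≤ b → b < 10007 → blk get gs (gwB gwh 215) gd 27883091610518724965067285990884685173082682425600 b = true :=
  (range_join (range_join (range_join (range_join (allR_range b0 (by norm_num : 4 + 697 = 701)) (allR_range b1 (by norm_num : 701 + 632 = 1333))) (range_join (allR_range b2 (by norm_num : 1333 + 683 = 2016)) (allR_range b3 (by norm_num : 2016 + 643 = 2659)))) (range_join (range_join (allR_range b4 (by norm_num : 2659 + 685 = 3344)) (allR_range b5 (by norm_num : 3344 + 712 = 4056))) (range_join (allR_range b6 (by norm_num : 4056 + 687 = 4743)) (allR_range b7 (by norm_num : 4743 + 681 = 5424))))) (range_join (range_join (range_join (allR_range b8 (by norm_num : 5424 + 668 = 6092)) (allR_range b9 (by norm_num : 6092 + 649 = 6741))) (range_join (allR_range b10 (by norm_num : 6741 + 615 = 7356)) (allR_range b11 (by norm_num : 7356 + 636 = 7992)))) (range_join (range_join (allR_range b12 (by norm_num : 7992 + 650 = 8642)) (allR_range b13 (by norm_num : 8642 + 646 = 9288))) (range_join (allR_range b14 (by norm_num : 9288 + 631 = 9919)) (allR_range b15 (by norm_num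 : 9919 + 88 = 10007))))))

def X : List (List ℕ) := [[1], [2], [3], [5], [6], [7], [8]]

theorem hC : prepC sg 27883091610518724965067285990884685173082682425600 X 8 22275 349 = true := by decide +kernel

theorem hc : ∀ t, 0 ≤ t → t < 8 * 349 → clo get gc 22275 640704 349 t = true :=
  (range_join (allR_range c0 (by norm_num : 0 + 1562 = 1562)) (allR_range c1 (by norm_num : 1562 + 1230 = 2792)))

theorem cover {G : Type*} [Group G] {ev : ℕ → G} (hev : Good ev 1486034431776358958537884813664031080579328) (hR : Rels ev LR.M.R) :
    Cover (gen ev Sub) (gen ev X) 22275 :=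
  cert_cover hev hR hA hC hw hb (by norm_num) hc


end Cfsg.H6.LR.M.C1
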